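import Cfsg.Agent.Lib.SLn.PresAll
import Cfsg.Agent.Lib.SLn.MinIndexMain
import Cfsg.Agent.Lib.SLn.Mult
import Cfsg.Agent.Lib.SL2.Borel

/-!
Generators of `SL₂ × SLₘ`.
-/

set_option autoImplicit false

namespace Cfsg.Agent.SLn

open Subgroup Matrix MatrixGroups SL2

section abstract

variable {A B : Type*} [Group A] [Group B] {I : Subgroup (A × B)}

theorem surj_fst {s : Set (A × B)} (h : closure (Prod.fst '' s) = ⊤) :
    Function.Surjective (Prod.fst ∘ (closure s).subtype) := fun a => by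
  have : a ∈ (closure s).map (MonoidHom.fst A B) := by
    rw [MonoidHom.map_closure]; exact h ▸ mem_top a
  obtain ⟨x, hx, e⟩ := this
  exact ⟨⟨x, hx⟩, e⟩

theorem surj_snd {s : Set (A × B)} (h : closure (Prod.snd '' s) = ⊤) :
    Function.Surjective (Prod.snd ∘ (closure s).subtype) := fun a => by
  have : a ∈ (closure s).map (MonoidHom.snd A B) := by
    rw [MonoidHom.map_closure]; exact h ▸ mem_top a
  obtain ⟨x, hx, e⟩ := this
  exact ⟨⟨x, hx⟩, e⟩

theorem eq_top_of_solvable (h1 : Function.Surjective (Prod.fst ∘ I.subtype))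
    (h2 : Function.Surjective (Prod.snd ∘ I.subtype)) (P : Subgroup A) [Group.IsSolvable P]
    (h0 : P.index ≠ 0) (hB : commutator B = ⊤) (hP : ∀ H : Subgroup B, H.index ≤ P.index → H = ⊤) :
    I = ⊤ := by
  let π : I →* A := (MonoidHom.fst A B).comp I.subtype
  let ρ : I →* B := (MonoidHom.snd A B).comp I.subtype
  have e1 : (P.comap π).index = P.index := P.index_comap_of_surjective h1
  have e2 := hP _ (Nat.le_of_dvd (Nat.pos_of_ne_zero h0) (e1 ▸ (P.comap π).index_map_dvd (f := ρ) h2))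
  have e3 : Function.Surjective (ρ.comp (P.comap π).subtype) := fun b =>
    let ⟨x, hx, e⟩ := (e2 ▸ mem_top b : b ∈ (P.comap π).map ρ); ⟨⟨x, hx⟩, e⟩
  obtain ⟨n, hn⟩ := (inferInstance : Group.IsSolvable P)
  have e4 : ∀ n, derivedSeries B n = ⊤ := fun n => by
    induction n with
    | zero => rfl
    | succ n ih => rw [derivedSeries_succ, ih]; exact hB
  have e5 : ∀ b, (1, b) ∈ I := fun b => by
    obtain ⟨x, hx, e⟩ : b ∈ (derivedSeries _ n).map (ρ.comp (P.comap π).subtype) := by
      rw [map_derivedSeries_eq e3, e4]; exact mem_top b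
    have := map_derivedSeries_le_derivedSeries (π.subgroupComap P) n ⟨x, hx, rfl⟩
    rw [hn, mem_bot] at this
    convert x.1.2 using 1
    exact Prod.ext (congrArg Subtype.val this).symm e.symm
  refine eq_top_iff.2 fun x _ => ?_
  obtain ⟨y, e⟩ := h1 x.1
  convert mul_mem y.2 (e5 (y.1.2⁻¹ * x.2)) using 1
  exact Prod.ext (by simpa using e.symm) (by simp)

theorem closure_three {a b : A} {c d : B} (h1 : closure {a, b} = ⊤) (h2 : closure {c, d} = ⊤)
    (h3 : normalClosure {a} = ⊤) : closure {(a, (1 : B)), (b, c), (1, d)} = ⊤ := by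
  have e1 := surj_fst (s := {(a, (1 : B)), (b, c), (1, d)}) (eq_top_iff.2
    (h1 ▸ closure_mono (by simp [Set.image_insert_eq, Set.insert_subset_iff])))
  have e2 := surj_snd (s := {(a, (1 : B)), (b, c), (1, d)}) (eq_top_iff.2
    (h2 ▸ closure_mono (by simp [Set.image_insert_eq, Set.insert_subset_iff])))
  have := normal_goursatFst e1
  have e3 := normalClosure_le_normal (s := {a})
    (N := (closure {(a, (1 : B)), (b, c), (1, d)}).goursatFst)
    (by simpa using Subgroup.subset_closure (by simp))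
  refine eq_top_iff.2 fun x _ => ?_
  obtain ⟨y, e⟩ := e2 x.2
  convert mul_mem (mem_goursatFst.1 (e3 (h3 ▸ mem_top (x.1 * y.1.1⁻¹)))) y.2 using 1
  exact Prod.ext (by simp) (by simpa using e.symm)

end abstract

variable {K : Type*} [Field K] [Finite K]

omit [Finite K] in
theorem isSolvable_bor : Group.IsSolvable (bor K) := by
  let g : bor K →* K :=
    { toFun := fun x => x.1.1 0 0
      map_one' := by simp
      map_mul' := fun x y => by simp [mul_apply2, mem_bor_iff.1 y.2] }
  refine Group.isSolvable_of_ker_le_range (upHom.codRestrict (bor K) fun b => up_mem_bor _)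
    g.toHomUnits fun x hx => ⟨Multiplicative.ofAdd (x.1.1 0 1 * x.1.1 0 0), Subtype.ext ?_⟩
  have : Units.mk0 (x.1.1 0 0) (bor_ne_zero (mem_bor_iff.1 x.2)) = 1 :=
    Units.ext (congrArg Units.val (MonoidHom.mem_ker.1 hx) :)
  refine .trans ?_ (bor_eq_up_mul_dg (mem_bor_iff.1 x.2)).symm
  rw [this, dg_one, mul_one]
  rfl

theorem prod_two_gen {m : ℕ} (hm : 3 ≤ m) :
    ∃ x y : SL(2, K) × SpecialLinearGroup (Fin m) K, closure {x, y} = ⊤ := by
  obtain ⟨a, b, h1⟩ := exists_two_gen (K := K) (n := 2) le_rfl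
  obtain ⟨c, d, h2⟩ := exists_two_gen (K := K) (n := m) (by omega)
  have e1 := surj_fst (s := {(a, c), (b, d)}) (by rwa [Set.image_pair])
  have e2 := surj_snd (s := {(a, c), (b, d)}) (by rwa [Set.image_pair])
  have e3 := commutator_SL (K := K) (ι := Fin m) (by simpa)
  have hq : 1 < Nat.card K := Finite.one_lt_card
  refine ⟨(a, c), (b, d), ?_⟩
  by_cases h : Nat.card K = 2
  · have : IsZGroup (⊤ : Subgroup SL(2, K)) := IsZGroup.of_squarefree (by
      rw [card_top, card_SL2, h]; decide +kernel)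
    exact eq_top_of_solvable e1 e2 ⊤ (by simp) e3 fun H hH => index_eq_one.1 (by
      have := H.index_ne_zero_of_finite; rw [index_top] at hH; omega)
  have := isSolvable_bor (K := K)
  refine eq_top_of_solvable e1 e2 (bor K) (by simp [index_bor]) e3 fun H hH => by_contra fun e => ?_
  have h3 := (le_index_of_ne_top (by simpa) (fun e => h e.2) H e).trans hH
  rw [index_bor, Fintype.card_fin] at h3
  obtain ⟨q, hq⟩ : ∃ q, Nat.card K = q + 1 := ⟨Nat.card K - 1, by omega⟩
  rw [hq] at h3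
  have h4 := Nat.pow_le_pow_right (n := q + 1) (by omega) hm
  have h5 : q + 1 + 1 < ((q + 1) ^ m - 1) / (q + 1 - 1) :=
    (Nat.le_div_iff_mul_le (by omega)).2 (Nat.le_sub_one_of_lt (lt_of_lt_of_le (by
      rw [Nat.add_sub_cancel]; nlinarith [Nat.zero_le (q ^ 3)]) h4))
  omega

theorem exists_gen_normal : ∃ a b : SL(2, K), closure {a, b} = ⊤ ∧ normalClosure {a} = ⊤ := by
  by_cases h : ∃ t : K, t ≠ 0 ∧ t ^ 2 ≠ 1
  · obtain ⟨t, t0, t1⟩ := h
    obtain ⟨a, b, h1⟩ := exists_two_gen (K := K) (n := 2) le_rfl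
    refine ⟨a, b, h1, eq_top_iff.2 ?_⟩
    rw [← Matrix.SL2.commutator_eq_top t0 t1]
    refine (Normal.quotient_commutative_iff_commutator_le.1 ⟨⟨fun x y => ?_⟩⟩)
    have : ∀ x : SL(2, K) ⧸ normalClosure {a}, x ∈ zpowers (b : SL(2, K) ⧸ normalClosure {a}) := by
      rintro ⟨x⟩
      refine (closure_le ((zpowers _).comap (QuotientGroup.mk' _))).2 ?_ (h1 ▸ mem_top x)
      rintro y (e | rfl)
      · change (y : SL(2, K) ⧸ normalClosure {a}) ∈ zpowers _
        rw [(QuotientGroup.eq_one_iff y).2 (subset_normalClosure e)]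
        exact one_mem _
      · exact mem_zpowers _
    obtain ⟨i, rfl⟩ := this x
    obtain ⟨j, rfl⟩ := this y
    exact zpow_mul_comm _ _ _
  push Not at h
  have k : ∀ H : Subgroup SL(2, K), up 1 ∈ H → ∀ t, up t ∈ H := fun H h1 t => by
    by_cases e : t = 0
    · rw [e, up_zero]; exact one_mem _
    rcases mul_self_eq_one_iff.1 ((sq t).symm.trans (h t e)) with rfl | rfl
    exacts [h1, up_inv (1 : K) ▸ inv_mem h1]
  refine ⟨up 1, wt, eq_top_of_up_wt (k _ (Subgroup.subset_closure (by simp)))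
    (Subgroup.subset_closure (by simp)), eq_top_of_up_lo (k _ (subset_normalClosure rfl)) fun t => ?_⟩
  rw [lo_eq]
  exact Normal.conj_mem inferInstance _ (k _ (subset_normalClosure (Set.mem_singleton _)) _) _

theorem prod_gen {m : ℕ} (hm : 2 ≤ m) : ∃ Γ : List (SL(2, K) × SpecialLinearGroup (Fin m) K),
    Γ.length = (if m = 2 then 3 else 2) ∧ closure {x | x ∈ Γ} = ⊤ := by
  split_ifs with h
  · obtain ⟨a, b, h1, h2⟩ := exists_gen_normal (K := K)
    obtain ⟨c, d, h3⟩ := exists_two_gen (K := K) hm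
    exact ⟨[(a, 1), (b, c), (1, d)], rfl, by rw [← closure_three h1 h3 h2]; congr 1; ext; simp⟩
  · obtain ⟨x, y, e⟩ := prod_two_gen (K := K) (m := m) (by omega)
    exact ⟨[x, y], rfl, by rw [← e]; congr 1; ext; simp⟩

end Cfsg.Agent.SLn
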