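import Cfsg.Agent.Lib.SLn.HessComm
import Cfsg.Agent.Lib.SLn.Sourour

/-!
# Non-scalar elements of `SL_n`, `n ≥ 3`, are commutators (any field)
-/

set_option autoImplicit false

namespace Cfsg.Agent.SLn

open Matrix Polynomial

variable {F : Type*} [Field F] {n : ℕ}

/-- the data chosen at one step -/
structure HRec (F : Type*) [Field F] (n : ℕ) where
  u : Fin n → F
  e : Fin n → F
  a : F[X]
  p : F[X]
  m : F[X]
  G : F
  P : F

/-- the pair `(u, a)` -/
def HRec.ua (t : HRec F n) : (Fin n → F) × F[X] := (t.u, t.a)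

/-- the conditions on one step -/
structure HStep (H : Matrix (Fin n) (Fin n) F) (ℓ : ℕ → F) (M c : ℕ) (r s : HRec F n)
    (T₁ T₂ : Set (HRec F n)) : Prop where
  e_lead : VLead s.e c
  u_lead : VLead s.u (c + 1)
  p_lead : PLead s.p c
  a_eq : s.a = X * s.p
  mem : (s.e, s.p) - r.ua ∈ Submodule.span F (HRec.ua '' T₁)
  G_ne : s.G ≠ 0
  P_eq : s.P = r.P * s.G
  rel : r.G • H *ᵥ s.e = s.G • r.u + (r.G * ℓ c) • s.u
  m_eq : s.m = s.p - C s.G * X ^ c * hh ℓ M (c + 1)
  m_not : s.m ∉ Submodule.span F (HRec.m '' T₂)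
  P_one : ℓ c ≠ 0 → s.P = 1

/-- starting data -/
noncomputable def hrec0 (F : Type*) [Field F] (n : ℕ) : HRec F (n + 1) :=
  ⟨Pi.single 0 1, 0, 1, 0, 0, 1, 1⟩

section Derived

variable {H : Matrix (Fin (n + 1)) (Fin (n + 1)) F} {ℓ : ℕ → F} {M c : ℕ}
  {x : ℕ → HRec F (n + 1)} (h0 : x 0 = hrec0 F n)
  (hx : ∀ j < c, HStep H ℓ M j (x j) (x (j + 1)) (x '' Set.Iio j) (x '' Set.Iic j))

include h0 hx

theorem hseq_basic {j : ℕ} (hj : j ≤ c) :
    VLead (x j).u j ∧ PLead (x j).a j ∧ (x j).G ≠ 0 ∧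
      (x j).P = ∏ i ∈ Finset.range (j + 1), (x i).G := by
  induction j with
  | zero =>
    rw [Finset.prod_range_one, h0]
    exact ⟨vlead_single (0 : Fin (n + 1)), ⟨mem_dlt.2 fun i hi => by
      simp [hrec0, coeff_one]; omega, by simp [hrec0]⟩, one_ne_zero, rfl⟩
  | succ j ih =>
    have h := hx j (by omega)
    refine ⟨h.u_lead, h.a_eq ▸ h.p_lead.X_mul, h.G_ne, ?_⟩
    rw [h.P_eq, (ih (by omega)).2.2.2, ← Finset.prod_range_succ]

theorem hseq_lift {k : ℕ} (hk : k ≤ c + 1) {y : Fin (n + 1) → F} (hy : y ∈ vlt F (n + 1) k) :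
    ∃ p ∈ degreeLT F k, (y, p) ∈ Submodule.span F (HRec.ua '' (x '' Set.Iio k)) := by
  induction k generalizing y with
  | zero =>
    have : y = 0 := funext fun i => hy i (Nat.zero_le _)
    exact ⟨0, Submodule.zero_mem _, by rw [this]; exact Submodule.zero_mem _⟩
  | succ k ih =>
    obtain ⟨h1, h2, -⟩ := hseq_basic h0 hx (show k ≤ c by omega)
    obtain ⟨t, ht⟩ := h1.exists_sub hy
    obtain ⟨p, hp, hp'⟩ := ih (by omega) ht
    refine ⟨p + t • (x k).a, Submodule.add_mem _ (dlt_mono (by omega) hp)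
      (Submodule.smul_mem _ _ h2.1), ?_⟩
    have : (y, p + t • (x k).a) = (y - t • (x k).u, p) + t • (x k).ua := by simp [HRec.ua]
    rw [this]
    refine Submodule.add_mem _ (Submodule.span_mono (Set.image_mono (Set.image_mono
      (Set.Iio_subset_Iio (by omega)))) hp') (Submodule.smul_mem _ _ (Submodule.subset_span ?_))
    exact ⟨_, ⟨k, Set.mem_Iio.2 (by omega), rfl⟩, rfl⟩

theorem hseq_elim {k : ℕ} (hk : k ≤ c) {v : Fin (n + 1) → F} (hv : v ∈ vlt F (n + 1) (k + 1)) :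
    ∃ y ∈ vlt F (n + 1) k, ∃ t : F, v = H *ᵥ y + t • (x k).u := by
  induction k generalizing v with
  | zero =>
    obtain ⟨t, ht⟩ := (hseq_basic h0 hx hk).1.exists_sub hv
    have : v - t • (x 0).u = 0 := funext fun i => ht i (Nat.zero_le _)
    exact ⟨0, Submodule.zero_mem _, t, by rw [mulVec_zero, zero_add, sub_eq_zero.1 this]⟩
  | succ k ih =>
    obtain ⟨t, ht⟩ := (hseq_basic h0 hx hk).1.exists_sub hv
    obtain ⟨y, hy, s, hs⟩ := ih (by omega) ht
    have h := hx k (by omega)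
    refine ⟨y + (s * (x (k + 1)).G⁻¹ * (x k).G) • (x (k + 1)).e, Submodule.add_mem _
      (vlt_mono (by omega) hy) (Submodule.smul_mem _ _ h.e_lead.1),
      t - s * (x (k + 1)).G⁻¹ * ((x k).G * ℓ k), ?_⟩
    rw [mulVec_add, mulVec_smul, mul_smul _ (x k).G, h.rel, smul_add, smul_smul, mul_assoc s,
      inv_mul_cancel₀ h.G_ne, mul_one, sub_eq_iff_eq_add.1 hs]
    module

theorem hseq_pivot (hH : H.det ≠ 0) (hu : H *ᵥ (x c).u ∈ vlt F (n + 1) (c + 1)) (hc : c ≤ n) :
    ∃ (e : Fin (n + 1) → F) (p : F[X]) (γ : F), γ ≠ 0 ∧ VLead e c ∧ PLead p c ∧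
      (e, p) - (x c).ua ∈ Submodule.span F (HRec.ua '' (x '' Set.Iio c)) ∧
      H *ᵥ e = γ • (x c).u := by
  obtain ⟨y, hy, t, ht⟩ := hseq_elim h0 hx le_rfl hu
  obtain ⟨p, hp, hp'⟩ := hseq_lift h0 hx (show c ≤ c + 1 by omega) (Submodule.neg_mem _ hy)
  obtain ⟨h1, h2, -⟩ := hseq_basic h0 hx le_rfl
  have h3 : H *ᵥ ((x c).u + -y) = t • (x c).u := by
    rw [mulVec_add, mulVec_neg, ht]; abel
  have h4 := h1.add (Submodule.neg_mem _ hy)
  refine ⟨_, (x c).a + p, t, fun e => ?_, h4, h2.add hp, by simpa [HRec.ua] using hp', h3⟩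
  rw [e, zero_smul, ← mulVec_zero H] at h3
  have := h4.2 ⟨c, by omega⟩ rfl
  rw [mulVec_inj_of_det hH h3] at this
  exact zero_ne_one this

omit h0 in
theorem hseq_m_mem {j : ℕ} (hj : j < c) :
    (x (j + 1)).m ∈ degreeLT F (j + (hh ℓ M (j + 1)).natDegree + 1) := by
  rw [(hx j hj).m_eq]
  exact Submodule.sub_mem _ (dlt_mono (by omega) (hx j hj).p_lead.1) (beta_mem _ _ _)

end Derived

theorem sub_beta_not_mem {p h : F[X]} {G : F} {c : ℕ} (hp : PLead p c) (hG : G ≠ 0) (hh : h ≠ 0)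
    (hd : 1 ≤ h.natDegree) : p - C G * X ^ c * h ∉ degreeLT F (c + h.natDegree) := by
  intro hm
  have := mem_dlt.1 hm _ le_rfl
  rw [coeff_sub, mem_dlt.1 hp.1 _ (by omega), zero_sub, neg_eq_zero] at this
  exact beta_top hG c hh this

theorem hseq_step {N : ℕ} (hN : 1 ≤ N) {H : Matrix (Fin (N + 2)) (Fin (N + 2)) F}
    (hH : ∀ i j : Fin (N + 2), j.val + 1 < i.val → H i j = 0) (hdet : H.det ≠ 0) {ℓ : ℕ → F}
    (hℓ : ∀ i j : Fin (N + 2), i.val = j.val + 1 → H i j = ℓ j) (hl : ℓ N ≠ 0) (c : ℕ)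
    (hc : c < N + 1) (x : ℕ → HRec F (N + 2)) (h0 : x 0 = hrec0 F (N + 1))
    (hx : ∀ j < c, HStep H ℓ (N + 1) j (x j) (x (j + 1)) (x '' Set.Iio j) (x '' Set.Iic j)) :
    ∃ s, HStep H ℓ (N + 1) c (x c) s (x '' Set.Iio c) (x '' Set.Iic c) := by
  obtain ⟨b1, b2, b3, b4⟩ := hseq_basic h0 hx le_rfl
  have hA : c + 1 ≤ N → (c = 0 ∨ ℓ c = 0) → ∀ {p : F[X]} {G : F}, PLead p c → G ≠ 0 →
      p - C G * X ^ c * hh ℓ (N + 1) (c + 1) ∉
        Submodule.span F (HRec.m '' (x '' Set.Iic c)) := by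
    intro h1 h2 p G hp hG hm
    refine sub_beta_not_mem hp hG (hh_ne_zero _ _ _) (natDegree_hh_pos hl h1)
      (Submodule.span_le.2 ?_ hm)
    rintro _ ⟨_, ⟨j, hj, rfl⟩, rfl⟩
    rcases j with _ | j
    · rw [h0]; exact Submodule.zero_mem _
    · have hj' : j + 1 ≤ c := hj
      refine dlt_mono ?_ (hseq_m_mem hx hj')
      have h3 := (natDegree_hh_mono (ℓ := ℓ) (N := N + 1) hj' (by omega)).2
      rw [natDegree_hh_of_zero hc (h2.resolve_left (by omega))] at h3
      omega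
  have hHv : ∀ {v : Fin (N + 2) → F}, VLead v c → (H *ᵥ v) ⟨c + 1, by omega⟩ = ℓ c := by
    intro v hv
    rw [hess_apply hH (j := ⟨c, by omega⟩) hv.1 rfl, hℓ _ _ rfl, hv.2 _ rfl, mul_one]
  by_cases h : ℓ c = 0
  · have hc' : c + 1 ≤ N := by
      rcases (show c ≤ N by omega).eq_or_lt with rfl | h'
      · exact absurd h hl
      · exact h'
    obtain ⟨e, p, γ, g1, g2, g3, g4, g5⟩ := hseq_pivot h0 hx hdet (fun i hi => by
      rcases hi.eq_or_lt with e | hi
      · rw [show i = ⟨c + 1, by omega⟩ from Fin.ext e.symm, hHv b1, h]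
      · exact hess_mem hH b1.1 i hi) (by omega)
    refine ⟨⟨Pi.single ⟨c + 1, by omega⟩ 1, e, X * p, p, _, (x c).G * γ,
      (x c).P * ((x c).G * γ)⟩, g2,
      vlead_single (⟨c + 1, by omega⟩ : Fin (N + 2)), g3, rfl, g4, mul_ne_zero b3 g1, rfl, ?_, rfl,
      hA hc' (Or.inr h) g3 (mul_ne_zero b3 g1), fun h' => absurd h h'⟩
    simp [g5, h, mul_smul]
  have hP : (x c).P ≠ 0 := by
    rw [b4]
    exact Finset.prod_ne_zero_iff.2 fun i hi =>
      (hseq_basic h0 hx (Nat.lt_succ_iff.1 (Finset.mem_range.1 hi))).2.2.1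
  obtain ⟨e, p, g2, g3, g4, g5⟩ : ∃ (e : Fin (N + 2) → F) (p : F[X]), VLead e c ∧ PLead p c ∧
      (e, p) - (x c).ua ∈ Submodule.span F (HRec.ua '' (x '' Set.Iio c)) ∧
      p - C (x c).P⁻¹ * X ^ c * hh ℓ (N + 1) (c + 1) ∉
        Submodule.span F (HRec.m '' (x '' Set.Iic c)) := by
    rcases c with _ | c
    · exact ⟨_, _, b1, b2, by simp [HRec.ua], hA hN (Or.inl rfl) b2 (inv_ne_zero hP)⟩
    rw [Set.image_image HRec.m]
    have := fd_span_Iic (fun j => (x j).m) (c + 1)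
    have h1 := hx c (by omega)
    rcases choose_poly (a := fun j => (x j).a) (c := c + 1)
      (fun i hi => (hseq_basic h0 hx hi.le).2.1) _
      (finrank_span_Iic_le (m := fun j => (x j).m) (by rw [h0]; rfl) (c + 1))
      (m := (x (c + 1)).m) (Submodule.subset_span ⟨c + 1, Set.mem_Iic.2 le_rfl, rfl⟩)
      (fun hm => sub_beta_not_mem h1.p_lead h1.G_ne (hh_ne_zero ℓ (N + 1) (c + 1))
        (natDegree_hh_pos hl (by omega)) (h1.m_eq ▸ dlt_mono
          (by have := natDegree_hh_pos (j := c + 1) hl (by omega); omega) hm))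
      ((x (c + 1)).a - C (x (c + 1)).P⁻¹ * X ^ (c + 1) * hh ℓ (N + 1) (c + 1 + 1)) with
      h2 | ⟨i, hi, h2⟩
    · exact ⟨_, _, b1, b2, by simp [HRec.ua], h2⟩
    · obtain ⟨d1, d2, -⟩ := hseq_basic h0 hx hi.le
      refine ⟨_, _, b1.add (vlt_mono hi d1.1), b2.add (dlt_mono hi d2.1), ?_, ?_⟩
      · refine Submodule.subset_span ⟨x i, ⟨i, hi, rfl⟩, ?_⟩
        simp [HRec.ua]
      · rwa [add_sub_right_comm]
  refine ⟨⟨(ℓ c)⁻¹ • (H *ᵥ e - ((x c).G⁻¹ * (x c).P⁻¹) • (x c).u), e, X * p, p, _, (x c).P⁻¹,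
    (x c).P * (x c).P⁻¹⟩,
    g2, ⟨Submodule.smul_mem _ _ (Submodule.sub_mem _ (hess_mem hH g2.1)
      (Submodule.smul_mem _ _ (vlt_mono (by omega) b1.1))), fun i hi => ?_⟩, g3, rfl, g4,
    inv_ne_zero hP, rfl, ?_, rfl, g5, fun _ => mul_inv_cancel₀ hP⟩
  · rw [show i = ⟨c + 1, by omega⟩ from Fin.ext hi]
    simp only [Pi.smul_apply, Pi.sub_apply, hHv g2]
    rw [b1.1 _ le_rfl]
    simp [h]
  · simp only [smul_smul, mul_assoc, mul_inv_cancel₀ h, mul_one, smul_sub, mul_inv_cancel_left₀ b3,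
      mul_inv_cancel_left₀ h]
    abel

/-- `A` is a commutator of two matrices of determinant one -/
def IsComm {ι : Type*} [Fintype ι] [DecidableEq ι] (A : Matrix ι ι F) : Prop :=
  ∃ a b : SpecialLinearGroup ι F, A = (a * b * a⁻¹ * b⁻¹).1

theorem isComm_of_hess {N : ℕ} (hN : 1 ≤ N) {H : Matrix (Fin (N + 2)) (Fin (N + 2)) F}
    (hH : ∀ i j : Fin (N + 2), j.val + 1 < i.val → H i j = 0) (hdet : H.det = 1)
    (hl : H (Fin.last (N + 1)) ⟨N, by omega⟩ ≠ 0) : IsComm H := by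
  let ℓ : ℕ → F := fun j => if h : j + 1 < N + 2 then H ⟨j + 1, h⟩ ⟨j, by omega⟩ else 0
  have hℓ : ∀ i j : Fin (N + 2), i.val = j.val + 1 → H i j = ℓ j := by
    intro i j hij
    simp only [ℓ]
    rw [dif_pos (hij ▸ i.2)]
    congr 1
    exact Fin.ext hij
  have hl' : ℓ N ≠ 0 := by rwa [hℓ _ _ rfl] at hl
  have hdet0 : H.det ≠ 0 := by rw [hdet]; exact one_ne_zero
  obtain ⟨x, h0, hx⟩ := exists_seq_hist (hrec0 F (N + 1)) (HStep H ℓ (N + 1)) (N + 1)
    (hseq_step hN hH hdet0 hℓ hl')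
  obtain ⟨e, p, γ, g1, g2, g3, g4, g5⟩ := hseq_pivot h0 hx hdet0
    (fun i hi => absurd i.2 (by omega)) le_rfl
  have hb := fun j (hj : j < N + 2) => hseq_basic h0 hx (Nat.lt_succ_iff.1 hj)
  let U : SpecialLinearGroup (Fin (N + 2)) F :=
    ⟨cols fun j => (x j).u, det_cols_vlead fun j hj => (hb j hj).1⟩
  let A : SpecialLinearGroup (Fin (N + 2)) F :=
    ⟨cols fun j => pvec (N + 2) (x j).a, det_cols_vlead fun j hj => (hb j hj).2.1.vlead⟩
  let B : SpecialLinearGroup (Fin (N + 2)) F :=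
    ⟨cols fun j => pvec (N + 2) (C (x j).G * X ^ j * hh ℓ (N + 1) j), by
      rw [det_cols_beta _ fun j => hh_coeff_zero ℓ (N + 1) j, ← (hb (N + 1) (by omega)).2.2.2]
      exact (hx N (by omega)).P_one hl'⟩
  let E : SpecialLinearGroup (Fin (N + 2)) F :=
    ⟨cols fun j => if j < N + 1 then (x (j + 1)).e else e, det_cols_vlead fun j hj => by
      split_ifs with h
      · exact (hx j h).e_lead
      · rwa [show j = N + 1 by omega]⟩
  have hUinv : ∀ j (hj : j < N + 2), (U⁻¹).1 *ᵥ (x j).u = Pi.single ⟨j, hj⟩ 1 := fun j hj =>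
    inv_mulVec_of_eq (cols_mulVec_single (fun j => (x j).u) ⟨j, hj⟩)
  have hAu : ∀ j < N + 2, (A * U⁻¹).1 *ᵥ (x j).u = pvec (N + 2) (x j).a := fun j hj => by
    rw [Matrix.SpecialLinearGroup.coe_mul, ← mulVec_mulVec, hUinv j hj]
    exact cols_mulVec_single (fun j => pvec (N + 2) (x j).a) ⟨j, hj⟩
  have hBu : ∀ j < N + 2, (B * U⁻¹).1 *ᵥ (x j).u =
      pvec (N + 2) (C (x j).G * X ^ j * hh ℓ (N + 1) j) := fun j hj => by
    rw [Matrix.SpecialLinearGroup.coe_mul, ← mulVec_mulVec, hUinv j hj]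
    exact cols_mulVec_single (fun j => pvec (N + 2) (C (x j).G * X ^ j * hh ℓ (N + 1) j)) ⟨j, hj⟩
  have hgraph : ∀ c < N + 2, ∀ {e : Fin (N + 2) → F} {p : F[X]},
      (e, p) - (x c).ua ∈ Submodule.span F (HRec.ua '' (x '' Set.Iio c)) →
        (A * U⁻¹).1 *ᵥ e = pvec (N + 2) p := by
    intro c hc e p hm
    have key : ∀ z ∈ Submodule.span F (HRec.ua '' (x '' Set.Iio c)),
        (A * U⁻¹).1 *ᵥ z.1 = pvec (N + 2) z.2 := by
      intro z hz
      induction hz using Submodule.span_induction with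
      | mem z hz =>
        obtain ⟨_, ⟨j, hj, rfl⟩, rfl⟩ := hz
        exact hAu j (lt_trans hj hc)
      | zero => simp
      | add a b _ _ ha hb => rw [Prod.fst_add, Prod.snd_add, mulVec_add, map_add, ha, hb]
      | smul t a _ ha => rw [Prod.smul_fst, Prod.smul_snd, mulVec_smul, map_smul, ha]
    have := key _ hm
    rw [Prod.fst_sub, Prod.snd_sub, mulVec_sub, map_sub] at this
    simp only [HRec.ua, hAu c hc] at this
    exact sub_left_injective this
  have hBH : ∀ j < N + 1, (B * U⁻¹).1 *ᵥ (H *ᵥ (x (j + 1)).e) =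
      pvec (N + 2) (C (x (j + 1)).G * X ^ j * hh ℓ (N + 1) (j + 1)) := by
    intro j hj
    have h1 := congrArg (fun v => (B * U⁻¹).1 *ᵥ v) (hx j hj).rel
    simp only [mulVec_add, mulVec_smul] at h1
    rw [hBu j (by omega), hBu (j + 1) (by omega), ← map_smul, ← map_smul, ← map_add] at h1
    apply smul_right_injective _ (hb j (by omega)).2.2.1
    simp only
    rw [h1, ← map_smul, hh_succ ℓ hj]
    congr 1
    simp only [smul_eq_C_mul, C_mul]
    ring
  have hBHe : (B * U⁻¹).1 *ᵥ (H *ᵥ e) =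
      pvec (N + 2) (C ((x (N + 1)).G * γ) * X ^ (N + 1) * hh ℓ (N + 1) (N + 1 + 1)) := by
    rw [g5, mulVec_smul, hBu _ (by omega), ← map_smul, hh_of_le ℓ le_rfl, hh_of_le ℓ (by omega)]
    congr 1
    simp only [smul_eq_C_mul, C_mul]
    ring
  have hΓ : (x (N + 1)).G * γ = 1 := by
    have h1 : (B * U⁻¹).1 * H * E.1 = cols fun j => pvec (N + 2)
        (C (if j < N + 1 then (x (j + 1)).G else (x (N + 1)).G * γ) * X ^ j *
          hh ℓ (N + 1) (j + 1)) := by
      rw [mul_cols]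
      refine cols_congr fun j hj => ?_
      rw [← mulVec_mulVec]
      split_ifs with h
      · exact hBH j h
      · rw [show j = N + 1 by omega]; exact hBHe
    have h2 := congrArg det h1
    rw [det_cols_beta _ fun j => hh_coeff_zero ℓ (N + 1) (j + 1), det_mul, det_mul, hdet, E.2,
      (B * U⁻¹).2, Finset.prod_range_succ, if_neg (lt_irrefl _),
      Finset.prod_congr rfl fun j hj => if_pos (Finset.mem_range.1 hj)] at h2
    have h3 := (hb (N + 1) (by omega)).2.2.2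
    rw [(hx N (by omega)).P_one hl', Finset.prod_range_succ', h0] at h3
    simp only [hrec0, mul_one] at h2 h3
    rw [← h3, one_mul] at h2
    exact h2.symm
  rw [hΓ, hh_of_le ℓ (by omega), C_1, one_mul, mul_one] at hBHe
  have hspan : Submodule.span F ((fun j => (x j).m) '' Set.Iic (N + 1)) = degreeLT F (N + 1) := by
    refine Submodule.eq_of_le_of_finrank_le (Submodule.span_le.2 ?_) ?_
    · rintro _ ⟨j, hj, rfl⟩
      rcases j with _ | j
      · simp only [h0]; exact Submodule.zero_mem _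
      · have hj' : j + 1 ≤ N + 1 := hj
        exact dlt_mono (by have := natDegree_hh_le (ℓ := ℓ) hj'; omega) (hseq_m_mem hx hj')
    · rw [finrank_dlt]
      refine le_finrank_span_Iic fun j hj => ?_
      rw [← Set.image_image HRec.m]
      exact (hx j hj).m_not
  have hD : ∀ y ∈ degreeLT F (N + 1), ∃ z : Fin (N + 2) → F, ((B * U⁻¹).1 *ᵥ z) 0 = 0 ∧
      (A * U⁻¹).1 *ᵥ z - (B * U⁻¹).1 *ᵥ z = pvec (N + 2) (X * y) := by
    intro y hy
    rw [← hspan] at hy
    induction hy using Submodule.span_induction with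
    | mem z hz =>
      obtain ⟨j, hj, rfl⟩ := hz
      rcases j with _ | j
      · exact ⟨0, by simp, by simp [h0, hrec0]⟩
      · have hj' : j + 1 ≤ N + 1 := hj
        refine ⟨(x (j + 1)).u, ?_, ?_⟩
        · rw [hBu _ (by omega), pvec_apply, coeff_beta, if_neg (by simp)]
        · rw [hBu _ (by omega), hAu _ (by omega), ← map_sub, (hx j hj').a_eq]
          simp only [(hx j hj').m_eq]
          congr 1
          ring
    | zero => exact ⟨0, by simp, by simp⟩
    | add a b _ _ ha hb =>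
      obtain ⟨z, z1, z2⟩ := ha
      obtain ⟨w, w1, w2⟩ := hb
      refine ⟨z + w, by rw [mulVec_add, Pi.add_apply, z1, w1, add_zero], ?_⟩
      rw [mul_add, map_add, ← z2, ← w2, mulVec_add, mulVec_add]; abel
    | smul t a _ ha =>
      obtain ⟨z, z1, z2⟩ := ha
      refine ⟨t • z, by rw [mulVec_smul, Pi.smul_apply, z1, smul_zero], ?_⟩
      rw [mul_smul_comm, map_smul, ← z2, mulVec_smul, mulVec_smul, smul_sub]
  obtain ⟨z, z1, z2⟩ : ∃ z : Fin (N + 2) → F, ((B * U⁻¹).1 *ᵥ z) 0 = (-1) ^ (N + 1) ∧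
      (A * U⁻¹).1 *ᵥ z - (B * U⁻¹).1 *ᵥ z = pvec (N + 2) (X * p) := by
    obtain ⟨z, z1, z2⟩ := hD (p - X ^ (N + 1) + ((-1 : F) ^ (N + 1)) • divX (hh ℓ (N + 1) 0))
      (Submodule.add_mem _ (mem_dlt.2 fun i hi => by
        rcases hi.eq_or_lt with rfl | hi
        · simp [g3.2]
        · simp [mem_dlt.1 g3.1 i hi, coeff_X_pow, hi.ne'])
        (Submodule.smul_mem _ _ (mem_dlt.2 fun i hi => by
          rw [coeff_divX, coeff_eq_zero_of_natDegree_lt]
          have := natDegree_hh_le (ℓ := ℓ) (N := N + 1) (j := 0) (by omega)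
          omega)))
    refine ⟨z + ((-1 : F) ^ (N + 1)) • (x 0).u, ?_, ?_⟩
    · rw [mulVec_add, mulVec_smul, hBu 0 (by omega), Pi.add_apply, z1, Pi.smul_apply, pvec_apply]
      simp [h0, hrec0, hh_coeff_zero]
    · rw [mulVec_add, mulVec_add, mulVec_smul, mulVec_smul, hBu 0 (by omega), hAu 0 (by omega),
        add_sub_add_comm, z2, h0]
      have h1 := divX_mul_X_add (hh ℓ (N + 1) 0)
      rw [hh_coeff_zero, C_1] at h1
      have h2 : pvec (N + 2) (X ^ (N + 2) : F[X]) = 0 := by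
        ext i; simp [pvec_apply, coeff_X_pow, i.2.ne]
      rw [← map_smul, ← map_smul, ← map_sub, ← map_add, ← add_zero (pvec _ (X * p)), ← neg_zero,
        ← h2, ← map_neg, ← map_add]
      congr 1
      simp only [hrec0, smul_eq_C_mul, C_1]
      linear_combination (C ((-1 : F) ^ (N + 1))) * h1
  let K : SpecialLinearGroup (Fin (N + 2)) F := ⟨compan ((B * U⁻¹).1 *ᵥ z), by
    rw [det_compan, z1, ← mul_pow]; simp⟩
  have e1 : (K * (A * U⁻¹)).1 * E.1 =
      (A * U⁻¹).1 * cols fun j => if j < N + 1 then (x (j + 1)).u else z := by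
    rw [mul_cols, mul_cols]
    refine cols_congr fun j hj => ?_
    rw [Matrix.SpecialLinearGroup.coe_mul K, ← mulVec_mulVec]
    split_ifs with h
    · rw [hgraph j hj (hx j h).mem, hAu _ (by omega), (hx j h).a_eq]
      change compan _ *ᵥ _ = _
      rw [compan_mulVec, mem_dlt.1 (hx j h).p_lead.1 _ h, zero_smul, add_zero]
    · rw [hgraph (N + 1) (by omega) g4]
      change compan _ *ᵥ _ = _
      rw [compan_mulVec, g3.2, one_smul, ← z2, sub_add_cancel]
  have e2 : (K * (B * U⁻¹)).1 * H * E.1 =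
      (B * U⁻¹).1 * cols fun j => if j < N + 1 then (x (j + 1)).u else z := by
    rw [mul_cols, mul_cols]
    refine cols_congr fun j hj => ?_
    rw [Matrix.SpecialLinearGroup.coe_mul K, ← mulVec_mulVec, ← mulVec_mulVec]
    split_ifs with h
    · rw [hBH j h, hBu _ (by omega)]
      change compan _ *ᵥ _ = _
      rw [compan_mulVec, mem_dlt.1 (beta_mem _ _ _) _
        (by have := natDegree_hh_le (ℓ := ℓ) (N := N + 1) (j := j + 1) h; omega),
        zero_smul, add_zero]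
      congr 1
      ring
    · rw [hBHe]
      change compan _ *ᵥ _ = _
      have h2 : pvec (N + 2) (X * X ^ (N + 1) : F[X]) = 0 := by
        ext i; simp [pvec_apply, ← pow_succ', coeff_X_pow, i.2.ne]
      rw [compan_mulVec, h2]
      simp
  generalize (cols fun j => if j < N + 1 then (x (j + 1)).u else z) = Y at e1 e2
  generalize A * U⁻¹ = A' at e1
  generalize B * U⁻¹ = B' at e2
  let H' : SpecialLinearGroup (Fin (N + 2)) F := ⟨H, hdet⟩
  have e3 : (A'⁻¹ * (K * A' * E)).1 = Y := by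
    rw [Matrix.SpecialLinearGroup.coe_mul, Matrix.SpecialLinearGroup.coe_mul _ E, e1, ← mul_assoc,
      coe_inv_mul, one_mul]
  have e4 : (B'⁻¹ * (K * B' * H' * E)).1 = Y := by
    rw [Matrix.SpecialLinearGroup.coe_mul, Matrix.SpecialLinearGroup.coe_mul _ E,
      Matrix.SpecialLinearGroup.coe_mul _ H', e2, ← mul_assoc, coe_inv_mul, one_mul]
  have e5 : A'⁻¹ * (K * A' * E) = B'⁻¹ * (K * B' * H' * E) := Subtype.ext (e3.trans e4.symm)
  have e6 : H' = (K * B')⁻¹ * B' * (B'⁻¹ * (K * B' * H' * E)) * E⁻¹ := by group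
  have e7 : H' = B'⁻¹ * K⁻¹ * B' * (A'⁻¹ * B') * (B'⁻¹ * K⁻¹ * B')⁻¹ * (A'⁻¹ * B')⁻¹ := by
    rw [e6, ← e5]
    simp only [_root_.mul_inv_rev, inv_inv, mul_assoc, mul_inv_cancel_left, inv_mul_cancel_left,
      mul_inv_cancel, mul_one]
  exact ⟨_, _, congrArg Subtype.val e7⟩

section Comm

variable {ι : Type*} [Fintype ι] [DecidableEq ι]

theorem IsComm.conj {A : Matrix ι ι F} (h : IsComm A) {P Q : Matrix ι ι F} (hQP : Q * P = 1) :
    IsComm (P * A * Q) := by
  have hPQ : P * Q = 1 := mul_eq_one_comm.1 hQP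
  let f : SpecialLinearGroup ι F →* SpecialLinearGroup ι F :=
    MonoidHom.mk' (fun g => ⟨P * g.1 * Q, by
      rw [det_mul, det_mul, g.2, mul_one, ← det_mul, hPQ, det_one]⟩) fun a b => by
      apply Subtype.ext
      change P * (a.1 * b.1) * Q = P * a.1 * Q * (P * b.1 * Q)
      simp only [mul_assoc]
      rw [← mul_assoc Q P, hQP, one_mul]
  obtain ⟨a, b, rfl⟩ := h
  refine ⟨f a, f b, ?_⟩
  rw [← map_inv, ← map_inv, ← map_mul, ← map_mul, ← map_mul]
  rfl

theorem IsComm.of_conj {A : Matrix ι ι F} (g : SpecialLinearGroup ι F)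
    (h : IsComm ((g⁻¹).1 * A * g.1)) : IsComm A := by
  have := h.conj (coe_inv_mul g)
  rwa [← mul_assoc, ← mul_assoc, coe_mul_inv, one_mul, mul_assoc, coe_mul_inv, mul_one] at this

theorem IsComm.transpose {A : Matrix ι ι F} (h : IsComm A) : IsComm Aᵀ := by
  obtain ⟨a, b, rfl⟩ := h
  let t : SpecialLinearGroup ι F → SpecialLinearGroup ι F := fun g =>
    ⟨g.1ᵀ, by rw [det_transpose, g.2]⟩
  have ht : ∀ g k, t (g * k) = t k * t g := fun g k => Subtype.ext (transpose_mul _ _)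
  have ht1 : ∀ g, t g⁻¹ = (t g)⁻¹ := fun g => eq_inv_of_mul_eq_one_right (by
    rw [← ht, inv_mul_cancel]; exact Subtype.ext transpose_one)
  refine ⟨t b⁻¹, t a⁻¹, ?_⟩
  change (t (a * b * a⁻¹ * b⁻¹)).1 = _
  rw [ht, ht, ht, ht1, ht1]
  simp only [mul_assoc, inv_inv]

theorem IsComm.submatrix {κ : Type*} [Fintype κ] [DecidableEq κ] {A : Matrix ι ι F}
    (h : IsComm A) (e : κ ≃ ι) : IsComm (A.submatrix e e) := by
  let f : SpecialLinearGroup ι F →* SpecialLinearGroup κ F :=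
    MonoidHom.mk' (fun g => ⟨g.1.submatrix e e, by rw [det_submatrix_equiv_self, g.2]⟩)
      fun a b => Subtype.ext (submatrix_mul_equiv _ _ _ _ _).symm
  obtain ⟨a, b, rfl⟩ := h
  refine ⟨f a, f b, ?_⟩
  rw [← map_inv, ← map_inv, ← map_mul, ← map_mul, ← map_mul]
  rfl

end Comm

/-- Hessenberg form with prescribed first basis vector -/
theorem exists_hess (A : Matrix (Fin (n + 1)) (Fin (n + 1)) F) (s : Fin (n + 1) → F) :
    ∃ g : SpecialLinearGroup (Fin (n + 1)) F,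
      (∀ i j : Fin (n + 1), j.val + 1 < i.val → ((g⁻¹).1 * A * g.1) i j = 0) ∧
        ∃ c : F, s = c • g.1 *ᵥ Pi.single 0 1 := by
  induction n with
  | zero =>
    refine ⟨1, fun i j h => absurd i.2 (by omega), s 0, ?_⟩
    ext i
    fin_cases i
    simp
  | succ n ih =>
    obtain ⟨k, c, hk⟩ : ∃ (k : SpecialLinearGroup (Fin (n + 2)) F) (c : F),
        s = c • k.1 *ᵥ Pi.single 0 1 := by
      by_cases hs : s = 0
      · exact ⟨1, 0, by simp [hs]⟩
      · obtain ⟨k, hk⟩ := exists_SL_mulVec (ι := Fin (n + 2)) (by simp) (v := Pi.single 0 1)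
          (by simp) hs
        exact ⟨k, 1, by rw [hk, one_smul]⟩
    obtain ⟨g, hg, d, hd⟩ := ih (((k⁻¹).1 * A * k.1).submatrix Fin.succ Fin.succ)
      fun i => ((k⁻¹).1 * A * k.1) i.succ 0
    refine ⟨k * oneSum g, ?_, c, ?_⟩
    · have e : ((k * oneSum g)⁻¹).1 * A * (k * oneSum g).1 =
          ((oneSum g)⁻¹).1 * ((k⁻¹).1 * A * k.1) * (oneSum g).1 := by
        rw [_root_.mul_inv_rev, Matrix.SpecialLinearGroup.coe_mul,
          Matrix.SpecialLinearGroup.coe_mul]
        simp only [mul_assoc]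
      rw [e, bord_eta ((k⁻¹).1 * A * k.1), coe_oneSum_inv, coe_oneSum, bord_mul, bord_mul, hd]
      intro i j
      refine Fin.cases ?_ (fun i => ?_) i <;> refine Fin.cases ?_ (fun j => ?_) j <;> intro hij
      · simp at hij
      · simp at hij
      · have : i ≠ 0 := by rintro rfl; simp at hij
        rw [bord_succ_zero, mulVec_smul, inv_mulVec_of_eq rfl]
        simp [this]
      · rw [bord_succ_succ]
        have := hg i j (by simpa using hij)
        simpa using this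
    · rw [hk, Matrix.SpecialLinearGroup.coe_mul, ← mulVec_mulVec, coe_oneSum, single_zero_eq_cons,
        bord_mulVec]
      simp

/-- **Thompson**: a non-scalar matrix of determinant one and size at least three is a
commutator in the special linear group -/
theorem isComm_of_not_scalar (hn : 3 ≤ n) {A : Matrix (Fin n) (Fin n) F} (hdet : A.det = 1)
    (hA : ∀ c : F, A ≠ c • 1) : IsComm A := by
  obtain ⟨N, rfl⟩ : ∃ N, n = N + 2 := ⟨n - 2, by omega⟩
  obtain ⟨v, hv⟩ := exists_not_eigen (A := Aᵀ) fun c e => hA c (by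
    simpa using congrArg Matrix.transpose e)
  obtain ⟨g, hg, c, hc⟩ := exists_hess Aᵀ v
  set H := (g⁻¹).1 * Aᵀ * g.1 with hH
  have h1 : H 1 0 ≠ 0 := by
    intro h
    apply hv (H 0 0)
    have : H *ᵥ Pi.single 0 1 = H 0 0 • Pi.single 0 1 := by
      ext i
      refine Fin.cases ?_ (fun i => ?_) i
      · simp
      · refine Fin.cases ?_ (fun i => ?_) i
        · simpa using h
        · simpa using hg i.succ.succ 0 (by simp)
    rw [hc, mulVec_smul, ← pair_mulVec, this, mulVec_smul, smul_comm]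
  have h2 : IsComm (Hᵀ.submatrix Fin.revPerm Fin.revPerm) := by
    refine isComm_of_hess (by omega) (fun i j hij => ?_) ?_ ?_
    · exact hg _ _ (by simp; omega)
    · rw [det_submatrix_equiv_self, det_transpose, hH, det_conj_SL, det_transpose, hdet]
    · convert h1 using 1
      simp only [submatrix_apply, transpose_apply, Fin.revPerm_apply]
      congr 1 <;> ext <;> simp
  have h3 := (h2.submatrix Fin.revPerm.symm).transpose
  rw [submatrix_submatrix, Equiv.self_comp_symm, submatrix_id_id, transpose_transpose] at h3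
  simpa using (h3.of_conj g).transpose

end Cfsg.Agent.SLn
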